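import Cfsg.Agent.H860.JM.Geom
import Mathlib.GroupTheory.Index

/-!
# S5580, the maximal 2-local subgroups of `J4`: case B (helper322, task 3789)

`E = Ω₁(Z(O₂(M)))` contains elements of class 2B.
-/

set_option autoImplicit false

namespace Cfsg.Agent.H322.JM

open Cfsg.Agent.H860.JM Subgroup

section

variable {G : Type*} [Group G] [Finite G]

/-- the product formula -/
theorem card_mul_le {H K L : Subgroup G} (hH : H ≤ L) (hK : K ≤ L) :
    Nat.card H * Nat.card K ≤ Nat.card L * Nat.card (H ⊓ K : Subgroup G) := by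
  have h1 : Nat.card (H ⊓ K : Subgroup G) * K.relIndex H = Nat.card H := by
    rw [← inf_relIndex_left, ← relIndex_bot_left (H ⊓ K), relIndex_mul_relIndex _ _ _ bot_le inf_le_left,
      relIndex_bot_left]
  have h2 : Nat.card K * K.relIndex L = Nat.card L := by
    rw [← relIndex_bot_left K, relIndex_mul_relIndex _ _ _ bot_le hK, relIndex_bot_left]
  have h3 : K.relIndex H ≤ K.relIndex L := relIndex_le_of_le_right hH (index_ne_zero_of_finite (H := K.subgroupOf L))
  rw [← h1, ← h2]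
  calc Nat.card (H ⊓ K : Subgroup G) * K.relIndex H * Nat.card K
      ≤ Nat.card (H ⊓ K : Subgroup G) * K.relIndex L * Nat.card K := by gcongr
    _ = _ := by ring

end

section

variable {G : Type*} [Group G]

/-- `m` normalizes the normalized groups -/
theorem cj_eq {m : G} {H : Subgroup G} (h : m ∈ normalizer (H : Set G)) : cj m H = H := by
  ext x
  rw [Subgroup.mem_map_equiv, MulAut.conj_symm_apply]
  have h1 := (mem_normalizer_iff.1 h) (m⁻¹ * x * m)
  rw [show m * (m⁻¹ * x * m) * m⁻¹ = x by group] at h1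
  exact h1

theorem mem_norm_of_cj {m : G} {H : Subgroup G} (h : cj m H = H) : m ∈ normalizer (H : Set G) := by
  rw [mem_normalizer_iff]
  intro x
  have h1 : m * x * m⁻¹ ∈ cj m H ↔ x ∈ H := by
    rw [Subgroup.mem_map_equiv, MulAut.conj_symm_apply, show m⁻¹ * (m * x * m⁻¹) * m = x by group]
  rw [← h1, h]

theorem mem_cj {m x : G} {H : Subgroup G} (h : x ∈ H) : m * x * m⁻¹ ∈ cj m H :=
  ⟨x, h, rfl⟩

theorem card_cj (m : G) (H : Subgroup G) : Nat.card (cj m H) = Nat.card H :=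
  Subgroup.card_map_of_injective (MulAut.conj m).injective

theorem cj_inf (m : G) (H K : Subgroup G) : cj m (H ⊓ K) = cj m H ⊓ cj m K :=
  Subgroup.map_inf _ _ _ (MulAut.conj m).injective

/-- the normalizers of the conjugates -/
theorem le_norm_cj {m : G} {Q P : Subgroup G} (hm : m ∈ normalizer (Q : Set G)) (h : Q ≤ normalizer (P : Set G)) :
    Q ≤ normalizer ((cj m P : Subgroup G) : Set G) := by
  intro x hx
  have h1 : m⁻¹ * x * m ∈ Q := by
    have h2 := (mem_normalizer_iff.1 hm) (m⁻¹ * x * m)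
    rw [show m * (m⁻¹ * x * m) * m⁻¹ = x by group] at h2
    exact h2.2 hx
  rw [mem_normalizer_iff]
  intro y
  rw [Subgroup.mem_map_equiv, Subgroup.mem_map_equiv, MulAut.conj_symm_apply, MulAut.conj_symm_apply]
  have h3 := (mem_normalizer_iff.1 (h h1)) (m⁻¹ * y * m)
  rw [h3, show m⁻¹ * x * m * (m⁻¹ * y * m) * (m⁻¹ * x * m)⁻¹ = m⁻¹ * (x * y * x⁻¹) * m by group]

end

variable {G : Type*} [Group G] [Finite G] {Γ : Geom G}

/-- the orders of the lines and the intersections -/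
theorem ne_bot_of_mem {P : Subgroup G} {t : G} (ht : t ∈ P) (h1 : t ≠ 1) : P ≠ ⊥ := by
  rintro rfl
  exact h1 (mem_bot.1 ht)

/-- **case B** -/
theorem caseB (Γ : Geom G) (h : Facts Γ) (_hLL : LL Γ) (hPT : PT Γ) (hL3 : L3 Γ) : CaseB Γ := by
  rintro M Q E hl ⟨t, htE, htB⟩
  -- the points of the 2B elements of `E`
  have hQ : ∀ e P, e ∈ E → Γ.B e → Γ.Pt P → e ∈ P → Q ≤ normalizer (P : Set G) := by
    intro e P he hB hP heP
    obtain ⟨P', -, -, hu, hc⟩ := h.f4 e hB
    rw [hu P hP heP]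
    refine le_trans (fun x hx => ?_) hc
    rw [mem_centralizer_singleton_iff]
    exact hl.cent x hx e he
  have hne : ∀ e, Γ.B e → e ≠ 1 := fun e he => (h.f1.B_inv e he).1
  have hneA : ∀ e, Γ.A e → e ≠ 1 := fun e he => (h.f1.A_inv e he).1
  set BB : Set (Subgroup G) := {P | Γ.Pt P ∧ ∃ e ∈ E, Γ.B e ∧ e ∈ P} with hBB
  have hBBinv : Inv M BB := by
    rintro m hm P ⟨hP, e, he, hB, heP⟩
    exact ⟨h.f1.Pt_conj m P hP, m * e * m⁻¹, (mem_normalizer_iff.1 (hl.normE hm) e).1 he, h.f1.B_conj m e hB,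
      mem_cj heP⟩
  have hBBpt : ∀ P ∈ BB, Γ.Pt P := fun P hP => hP.1
  have hBBQ : ∀ P ∈ BB, Γ.Pt P ∧ Q ≤ normalizer (P : Set G) := by
    rintro P ⟨hP, e, he, hB, heP⟩
    exact ⟨hP, hQ e P he hB hP heP⟩
  have hBBne : BB.Nonempty := by
    obtain ⟨P, hP, ht, -, -⟩ := h.f4 t htB
    exact ⟨P, hP, t, htE, htB, ht⟩
  have hBBbot : ∀ P ∈ BB, P ≠ ⊥ := by
    rintro P ⟨hP, e, he, hB, heP⟩
    exact ne_bot_of_mem heP (hne e hB)
  have hBB2 : ∀ P ∈ BB, ∀ P' ∈ BB, P ⊓ P' ≠ ⊥ := by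
    rintro P ⟨hP, e, he, hB, heP⟩ P' ⟨hP', e', he', hB', heP'⟩
    exact h.f13 P P' e' hP hP' (hQ e P he hB hP heP (hl.E_le he')) hB' heP'
  by_cases hbot : sInf BB ≠ ⊥
  · exact hPT M BB hBBinv hBBpt hBBne hbot
  rw [not_not] at hbot
  by_cases h3 : ∀ P ∈ BB, ∀ P' ∈ BB, ∀ P'' ∈ BB, P ⊓ P' ⊓ P'' ≠ ⊥
  · -- all triples meet
    refine hL3 M Q E hl BB hBBinv hBBQ ?_ h3 ?_ hbot
    · intro P hP P' hP' hPP
      rcases h.f5 P P' hP.1 hP'.1 hPP with h4 | ⟨z, hz, hz'⟩ | h4
      · exact absurd h4 (hBB2 P hP P' hP')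
      · exfalso
        have h5 : z ∈ sInf BB := by
          rw [Subgroup.mem_sInf]
          intro P'' hP''
          obtain ⟨⟨x, hx⟩, hx1'⟩ := Subgroup.ne_bot_iff_exists_ne_one.1 (h3 P hP P' hP' P'' hP'')
          have hx1 : x ≠ 1 := fun e => hx1' (Subtype.ext e)
          rcases (hz' x).1 (Subgroup.mem_inf.1 hx).1 with h6 | h6
          · exact absurd h6 hx1
          · rw [← h6]
            exact (Subgroup.mem_inf.1 hx).2
        rw [hbot] at h5
        exact hneA z hz (mem_bot.1 h5)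
      · exact h4
    · by_contra hcon
      push Not at hcon
      obtain ⟨P, hP⟩ := hBBne
      have h4 : BB = {P} := Set.eq_singleton_iff_unique_mem.2 ⟨hP, fun P' hP' => hcon P' hP' P hP⟩
      rw [h4, sInf_singleton] at hbot
      exact hBBbot P hP hbot
  · -- a triple with trivial intersection
    push Not at h3
    obtain ⟨Pa, ⟨hPa, a, ha, haB, haP⟩, Pb, ⟨hPb, b, hb, hbB, hbP⟩, Pc, ⟨hPc, c, hc, hcB, hcP⟩, habc⟩ := h3
    obtain ⟨P₀, K, hP₀, hKP, hK32, ⟨e₀, he₀, he₀B⟩, hKc⟩ := h.f18 a b c haB hbB hcB (hl.el.comm a ha b hb)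
      (hl.el.comm a ha c hc) (hl.el.comm b hb c hc) Pa Pb Pc hPa hPb hPc haP hbP hcP habc
    have hKE : K ≤ E := by
      intro x hx
      refine hl.mem x ((h.f3.el P₀ hP₀).sq x (hKP hx)) fun y hy => ?_
      exact (hKc x hx y (hl.cent y hy a ha) (hl.cent y hy b hb) (hl.cent y hy c hc)).symm
    set S : Set (Subgroup G) := {P | Γ.Pt P ∧ Q ≤ normalizer (P : Set G) ∧ 32 ≤ Nat.card (E ⊓ P : Subgroup G)} with hS
    have hSinv : Inv M S := by
      rintro m hm P ⟨hP, hPQ, hPE⟩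
      refine ⟨h.f1.Pt_conj m P hP, le_norm_cj (hl.normQ hm) hPQ, ?_⟩
      rwa [← cj_eq (hl.normE hm), ← cj_inf, card_cj]
    have hP₀S : P₀ ∈ S := by
      refine ⟨hP₀, hQ e₀ P₀ (hKE he₀) he₀B hP₀ (hKP he₀), hK32.trans ?_⟩
      exact Subgroup.card_le_of_le (le_inf hKE hKP)
    have hSpt : ∀ P ∈ S, Γ.Pt P := fun P hP => hP.1
    have hSbot : ∀ P ∈ S, P ≠ ⊥ := by
      rintro P ⟨hP, -, h4⟩ rfl
      rw [inf_bot_eq, Subgroup.card_bot] at h4
      omega
    by_cases hSi : sInf S ≠ ⊥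
    · exact hPT M S hSinv hSpt ⟨P₀, hP₀S⟩ hSi
    rw [not_not] at hSi
    by_cases h8 : ∃ P ∈ S, 8 * Nat.card (E ⊓ P : Subgroup G) ≤ Nat.card E
    · -- `Q = X`
      obtain ⟨P, ⟨hP, hPQ, hPE⟩, h8⟩ := h8
      obtain ⟨X, hX, hEX⟩ := h.f16 P E hP hl.el (hl.E_le.trans hPQ) hPE h8
      have hQX : Q ≤ X := by
        refine le_trans (fun x hx => ?_) hEX
        rw [mem_centralizer_iff]
        intro e he
        exact (hl.cent x hx e he).symm
      have hXQ : X ≤ Q := by
        refine le_trans (fun x hx => ?_) hl.self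
        rw [mem_centralizer_iff]
        intro y hy
        exact (h.f3.elX X hX).comm y (hQX hy) x hx
      refine Or.inr (Or.inr (Or.inr ⟨X, hX, ?_⟩))
      rw [← le_antisymm hQX hXQ]
      exact hl.normQ
    push Not at h8
    -- two members of `S`
    have key : ∀ P ∈ S, ∀ P' ∈ S, P ≠ P' → Γ.Ln (P ⊓ P') ∧ P ⊓ P' ≤ E ∧ Nat.card (E ⊓ P : Subgroup G) < 64 := by
      intro P hP P' hP' hPP
      have h4 := card_mul_le (H := E ⊓ P) (K := E ⊓ P') (L := E) inf_le_left inf_le_left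
      have h5 := h8 P' hP'
      have h6 : (E ⊓ P) ⊓ (E ⊓ P') = E ⊓ (P ⊓ P') := by
        rw [← inf_inf_distrib_left]
      rw [h6] at h4
      have h7 : Nat.card (E ⊓ P : Subgroup G) < 8 * Nat.card (E ⊓ (P ⊓ P') : Subgroup G) := by
        have h9 : Nat.card (E ⊓ P : Subgroup G) * Nat.card (E ⊓ P' : Subgroup G) <
            8 * Nat.card (E ⊓ (P ⊓ P') : Subgroup G) * Nat.card (E ⊓ P' : Subgroup G) := by
          refine h4.trans_lt ?_
          calc Nat.card E * Nat.card (E ⊓ (P ⊓ P') : Subgroup G) <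
              8 * Nat.card (E ⊓ P' : Subgroup G) * Nat.card (E ⊓ (P ⊓ P') : Subgroup G) :=
                Nat.mul_lt_mul_of_pos_right h5 Nat.card_pos
            _ = _ := by ring
        exact lt_of_mul_lt_mul_right h9 (Nat.zero_le _)
      have h9 := hP.2.2
      have h10 : 4 < Nat.card (E ⊓ (P ⊓ P') : Subgroup G) := by omega
      have h11 : P ⊓ P' ≠ ⊥ := by
        intro h12
        rw [h12, inf_bot_eq, Subgroup.card_bot] at h10
        omega
      have h12 : Nat.card (E ⊓ (P ⊓ P') : Subgroup G) ∣ Nat.card (P ⊓ P' : Subgroup G) :=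
        Subgroup.card_dvd_of_le inf_le_right
      rcases h.f5 P P' hP.1 hP'.1 hPP with h13 | ⟨z, hz, hz'⟩ | h13
      · exact absurd h13 h11
      · exfalso
        have h14 : Nat.card (P ⊓ P' : Subgroup G) ≤ 2 := by
          have h15 : ((P ⊓ P' : Subgroup G) : Set G) ⊆ {1, z} := by
            intro x hx
            exact (hz' x).1 hx
          have h16 := Set.ncard_le_ncard h15 (Set.toFinite _)
          have h17 := Set.ncard_insert_le (1 : G) {z}
          rw [Set.ncard_singleton] at h17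
          have h18 : Nat.card (P ⊓ P' : Subgroup G) = ((P ⊓ P' : Subgroup G) : Set G).ncard := rfl
          omega
        have := Nat.le_of_dvd Nat.card_pos h12
        omega
      · have h14 := h.f6.card _ h13
        have h15 : Nat.card (E ⊓ (P ⊓ P') : Subgroup G) = 8 := by
          rw [h14] at h12
          have h16 := Nat.le_of_dvd (by norm_num) h12
          interval_cases h17 : Nat.card (E ⊓ (P ⊓ P') : Subgroup G) <;> omega
        refine ⟨h13, ?_, by omega⟩
        have h16 : E ⊓ (P ⊓ P') = P ⊓ P' := Subgroup.eq_of_le_of_card_ge inf_le_right (by rw [h14, h15])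
        rw [← h16]
        exact inf_le_left
    have key3 : ∀ P ∈ S, ∀ P' ∈ S, ∀ P'' ∈ S, P ⊓ P' ⊓ P'' ≠ ⊥ := by
      have h2 : ∀ P ∈ S, ∀ P' ∈ S, P ⊓ P' ≠ ⊥ := by
        intro P hP P' hP'
        by_cases hPP : P = P'
        · rw [hPP, inf_idem]
          exact hSbot P' hP'
        · obtain ⟨h4, -, -⟩ := key P hP P' hP' hPP
          intro h5
          have h6 := h.f6.card _ h4
          rw [h5, Subgroup.card_bot] at h6
          omega
      intro P hP P' hP' P'' hP''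
      by_cases h4 : P = P'
      · rw [h4, inf_idem]
        exact h2 P' hP' P'' hP''
      by_cases h5 : P = P''
      · rw [inf_right_comm, h5, inf_idem]
        exact h2 P'' hP'' P' hP'
      obtain ⟨h6, h7, h8⟩ := key P hP P' hP' h4
      obtain ⟨h9, h10, -⟩ := key P hP P'' hP'' h5
      have h11 := card_mul_le (H := P ⊓ P') (K := P ⊓ P'') (L := E ⊓ P) (le_inf h7 inf_le_left)
        (le_inf h10 inf_le_left)
      rw [h.f6.card _ h6, h.f6.card _ h9] at h11
      intro h12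
      have h13 : (P ⊓ P') ⊓ (P ⊓ P'') = ⊥ := by
        rw [← inf_inf_distrib_left, ← inf_assoc, h12]
      rw [h13, Subgroup.card_bot] at h11
      omega
    refine hL3 M Q E hl S hSinv (fun P hP => ⟨hP.1, hP.2.1⟩) (fun P hP P' hP' hPP => (key P hP P' hP' hPP).1) key3
      ?_ hSi
    by_contra hcon
    push Not at hcon
    have h4 : S = {P₀} := Set.eq_singleton_iff_unique_mem.2 ⟨hP₀S, fun P' hP' => hcon P' hP' P₀ hP₀S⟩
    rw [h4, sInf_singleton] at hSi
    exact hSbot P₀ hP₀S hSi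

end Cfsg.Agent.H322.JM
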